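import Cfsg.Agent.H551.E5.Irr

/-!
# S3510, row F (even), box E5, case (3): a member of large order (helper551)

`exists_big` : on an irreducible `D` of dimension `4`, some member does not satisfy `T^(q²) = T`.
-/

set_option autoImplicit false
set_option linter.unusedSectionVars false
open Cfsg

namespace Cfsg.Agent.H551.E5

open QuadraticMap Module
open Cfsg.Agent.LieClassical.OrthCore

section big

variable {F X ι : Type} [Field F] [Finite F] [AddCommGroup X] [Module F X] [FiniteDimensional F X]

/-- the algebra generated by a commuting irreducible family -/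
theorem card_le_of_irr {t : ι → End F X} (hc : ∀ i j, t i * t j = t j * t i) (h0 : ∃ v : X, v ≠ 0)
    (hirr : ∀ U : Submodule F X, (∀ i, ∀ v ∈ U, t i v ∈ U) → U ≠ ⊥ → U = ⊤) {N : ℕ} (hN : 2 ≤ N)
    (hp : ∀ a b : End F X, a * b = b * a → (a + b) ^ N = a ^ N + b ^ N)
    (hF : ∀ c : F, c ^ N = c) (ht : ∀ i, t i ^ N = t i) : Nat.card X ≤ N := by
  classical
  have hXf : Finite X := Module.finite_of_finite F
  let A := Algebra.adjoin F (Set.range t)
  have hcomm : ∀ a ∈ Set.range t, ∀ b ∈ Set.range t, a * b = b * a := by
    rintro _ ⟨i, rfl⟩ _ ⟨j, rfl⟩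
    exact hc i j
  have iMC : IsMulCommutative A := Algebra.isMulCommutative_adjoin F hcomm
  let iA : CommRing A := { (inferInstance : Ring A) with mul_comm := fun a b => iMC.is_comm.comm a b }
  have hmem : ∀ i, t i ∈ A := fun i => Algebra.subset_adjoin ⟨i, rfl⟩
  have hcA : ∀ a b : End F X, a ∈ A → b ∈ A → a * b = b * a := by
    intro a b ha hb
    have := mul_comm (⟨a, ha⟩ : A) ⟨b, hb⟩
    exact congrArg Subtype.val this
  have hfinE : Finite (End F X) := Finite.of_injective (fun f : End F X => (f : X → X)) DFunLike.coe_injective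
  have hfinA : Finite A := Subtype.finite
  -- kernels
  have hker : ∀ a b : End F X, a ∈ A → b ∈ A → a * b = 0 → b ≠ 0 → a = 0 := by
    intro a b ha hb hab hb0
    have h1 : LinearMap.ker a = ⊤ := by
      apply hirr
      · intro i v hv
        have h2 := LinearMap.congr_fun (hcA a (t i) ha (hmem i)) v
        rw [LinearMap.mem_ker]
        have h3 : a (t i v) = t i (a v) := h2
        rw [h3, LinearMap.mem_ker.1 hv, map_zero]
      · intro h3
        apply hb0
        ext v
        have h4 : b v ∈ LinearMap.ker a := LinearMap.congr_fun hab v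
        rw [h3] at h4
        exact (Submodule.mem_bot F).1 h4
    exact LinearMap.ker_eq_top.1 h1
  obtain ⟨v0, hv0⟩ := h0
  have hnt : Nontrivial A := by
    refine ⟨⟨0, 1, fun h => hv0 ?_⟩⟩
    have h1 : (0 : End F X) = 1 := congrArg Subtype.val h
    have h2 := LinearMap.congr_fun h1 v0
    exact h2.symm
  have hnz : NoZeroDivisors A := by
    refine ⟨fun {a b} hab => ?_⟩
    by_cases hb : b = 0
    · exact Or.inr hb
    · left
      apply Subtype.ext
      exact hker a.1 b.1 a.2 b.2 (congrArg Subtype.val hab) fun h => hb (Subtype.ext h)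
  have hdom : IsDomain A := NoZeroDivisors.to_isDomain A
  -- surjectivity
  have hle : Nat.card X ≤ Nat.card A := by
    let φ : A → X := fun a => a.1 v0
    have hs : Function.Surjective φ := by
      let W : Submodule F X :=
        { carrier := Set.range φ
          zero_mem' := ⟨0, rfl⟩
          add_mem' := by
            rintro _ _ ⟨a, rfl⟩ ⟨b, rfl⟩
            exact ⟨a + b, rfl⟩
          smul_mem' := by
            rintro c _ ⟨a, rfl⟩
            exact ⟨⟨c • a.1, A.smul_mem a.2 c⟩, rfl⟩ }
      have hW : W = ⊤ := by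
        apply hirr
        · rintro i _ ⟨a, rfl⟩
          exact ⟨⟨t i * a.1, A.mul_mem (hmem i) a.2⟩, rfl⟩
        · intro h
          have h1 : v0 ∈ W := ⟨1, rfl⟩
          rw [h] at h1
          exact hv0 ((Submodule.mem_bot F).1 h1)
      intro v
      have h1 : v ∈ W := by rw [hW]; trivial
      exact h1
    exact Nat.card_le_card_of_surjective φ hs
  -- all elements satisfy `a ^ N = a`
  have hpow : ∀ a ∈ A, a ^ N = a := by
    intro a ha
    induction ha using Algebra.adjoin_induction with
    | mem x hx =>
      obtain ⟨i, rfl⟩ := hx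
      exact ht i
    | algebraMap c => rw [← map_pow, hF]
    | add x y hx hy h1 h2 => rw [hp x y (hcA x y hx hy), h1, h2]
    | mul x y hx hy h1 h2 =>
      have h3 : (x * y) ^ N = x ^ N * y ^ N := (show Commute x y from hcA x y hx hy).mul_pow N
      rw [h3, h1, h2]
  have hpA : ∀ a : A, a ≠ 0 → a ^ (N - 1) = 1 := by
    intro a ha
    have h1 : a * a ^ (N - 1) = a * 1 := by
      rw [← pow_succ', Nat.sub_add_cancel (by omega), mul_one]
      apply Subtype.ext
      have h2 : ∀ n : ℕ, ((a ^ n : A) : End F X) = (a : End F X) ^ n := by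
        intro n
        induction n with
        | zero => rfl
        | succ n ih => rw [pow_succ, pow_succ, ← ih]; rfl
      rw [h2]
      exact hpow a.1 a.2
    exact mul_left_cancel₀ ha h1
  have := Fintype.ofFinite A
  have hcard : (Finset.univ.filter (fun a : A => a ≠ 0)).card ≤ N - 1 := by
    calc (Finset.univ.filter (fun a : A => a ≠ 0)).card ≤ (Polynomial.nthRoots (N - 1) (1 : A)).toFinset.card := by
          apply Finset.card_le_card
          intro a ha
          rw [Finset.mem_filter] at ha
          rw [Multiset.mem_toFinset, Polynomial.mem_nthRoots (by omega)]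
          exact hpA a ha.2
      _ ≤ Multiset.card (Polynomial.nthRoots (N - 1) (1 : A)) := Multiset.toFinset_card_le _
      _ ≤ N - 1 := Polynomial.card_nthRoots _ _
  have hcA' : Nat.card A = (Finset.univ.filter (fun a : A => a ≠ 0)).card + 1 := by
    rw [Nat.card_eq_fintype_card, Finset.filter_ne', Finset.card_erase_of_mem (Finset.mem_univ _),
      Finset.card_univ, Nat.sub_add_cancel Fintype.card_pos]
  omega

end big

section big2

variable {F V ι : Type} [Field F] [Finite F] [AddCommGroup V] [Module F V] [FiniteDimensional F V]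

theorem exists_big {T : ι → V ≃ₗ[F] V} (hc : ∀ i j, en T i * en T j = en T j * en T i)
    {D : Submodule F V} (hD4 : finrank F D = 4) (hTD : ∀ i, ∀ v ∈ D, T i v ∈ D)
    (hirr : ∀ U ≤ D, (∀ i, ∀ v ∈ U, T i v ∈ U) → U ≠ ⊥ → U = D) :
    ∃ i, ∃ v ∈ D, (en T i ^ (Nat.card F ^ 2)) v ≠ en T i v := by
  by_contra hcon
  push Not at hcon
  let t : ι → End F D := fun i => (en T i).restrict (hTD i)
  have ht : ∀ i n (v : D), ((t i ^ n) v : V) = (en T i ^ n) v := by
    intro i n
    induction n with
    | zero => intro v; rfl
    | succ n ih =>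
      intro v
      rw [pow_succ, pow_succ, Module.End.mul_apply, Module.End.mul_apply, ih]
      rfl
  obtain ⟨p, hp⟩ := CharP.exists F
  have hpp : Fact p.Prime := ⟨(CharP.char_is_prime_or_zero F p).resolve_right (CharP.char_ne_zero_of_finite F p)⟩
  have := Fintype.ofFinite F
  obtain ⟨n, -, hn⟩ := FiniteField.card F p
  have hnt : Nontrivial D := Module.nontrivial_of_finrank_pos (R := F) (by omega)
  have hcE : CharP (End F D) p := charP_of_injective_algebraMap (algebraMap F (End F D)).injective p
  have hq : 2 ≤ Nat.card F := Finite.one_lt_card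
  have h1 := card_le_of_irr (t := t) (N := Nat.card F ^ 2) (by
      intro i j
      ext v
      exact LinearMap.congr_fun (hc i j) (v : V)) (exists_ne 0) (by
      intro U hU hU0
      have h2 := hirr (U.map D.subtype) (Submodule.map_subtype_le D U) (by
        rintro i _ ⟨v, hv, rfl⟩
        exact ⟨t i v, hU i v hv, rfl⟩) (by
        intro h
        apply hU0
        rw [eq_bot_iff]
        intro v hv
        have h3 : (v : V) ∈ U.map D.subtype := ⟨v, hv, rfl⟩
        rw [h] at h3
        exact (Submodule.mem_bot F).2 (Subtype.ext ((Submodule.mem_bot F).1 h3)))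
      rw [eq_top_iff]
      rintro ⟨v, hv⟩ -
      rw [← h2] at hv
      obtain ⟨w, hw, hwv⟩ := hv
      have : w = ⟨v, by rw [← hwv]; exact w.2⟩ := Subtype.ext hwv
      rw [← this]
      exact hw) (by nlinarith) (by
      intro a b hab
      rw [Nat.card_eq_fintype_card, hn, ← pow_mul]
      exact add_pow_char_pow_of_commute p _ hab) (by
      intro c
      rw [pow_two, pow_mul, Nat.card_eq_fintype_card, FiniteField.pow_card, FiniteField.pow_card]) (by
      intro i
      ext v
      rw [ht]
      exact hcon i v v.2)
  rw [Module.natCard_eq_pow_finrank (K := F), hD4] at h1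
  have h2 : Nat.card F ^ 2 < Nat.card F ^ 4 := Nat.pow_lt_pow_right hq (by norm_num)
  omega

end big2

end Cfsg.Agent.H551.E5
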