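import Cfsg.Agent.LieClassical.OrthFinite

/-!
# S3510, row F (even), box E5: linear algebra (helper551)

Isometries of order prime to the characteristic; the exceptional case `q = 2`.
-/

set_option autoImplicit false

namespace Cfsg.Agent.H551.E5

open QuadraticMap Module Cfsg.Agent.LieClassical.OrthCore

section gen

variable {F V : Type*} [Field F] [AddCommGroup V] [Module F V] {Q : QuadraticForm F V}

/-- `A` is a nondegenerate subspace -/
def NonD (Q : QuadraticForm F V) (A : Submodule F V) : Prop :=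
  ∀ x ∈ A, (∀ y ∈ A, polar Q x y = 0) → x = 0

theorem nonD_iff {A : Submodule F V} : NonD Q A ↔ Nondeg (Q.comp A.subtype) := by
  constructor
  · intro h x hx
    apply Subtype.ext
    exact h x.1 x.2 fun y hy => hx ⟨y, hy⟩
  · intro h x hx hxy
    have h1 := h ⟨x, hx⟩ fun y => hxy y.1 y.2
    exact congrArg Subtype.val h1

/-- `S` preserves the polar form -/
def Iso (Q : QuadraticForm F V) (S : End F V) : Prop := ∀ v, Q (S v) = Q v

theorem Iso.polar {S : End F V} (h : Iso Q S) (u v : V) : polar Q (S u) (S v) = polar Q u v := by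
  simp only [QuadraticMap.polar, ← map_add, h _]

theorem pow_fix {S : End F V} {v : V} (h : S v = v) (n : ℕ) : (S ^ n) v = v := by
  induction n with
  | zero => rfl
  | succ n ih => rw [pow_succ, Module.End.mul_apply, h, ih]

theorem pow_mem {S : End F V} {A : Submodule F V} (hA : ∀ v ∈ A, S v ∈ A) {v : V} (hv : v ∈ A) (n : ℕ) :
    (S ^ n) v ∈ A := by
  induction n with
  | zero => exact hv
  | succ n ih => rw [pow_succ']; exact hA _ ih

theorem eq_zero_of_fix {S : End F V} {r : ℕ} (hr : (r : F) ≠ 0) (hS : S ^ r = 1) {v w : V} (h1 : S v = v)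
    (h2 : v = S w - w) : v = 0 := by
  have h3 : (∑ k ∈ Finset.range r, S ^ k) * (S - 1) = 0 := by rw [geom_sum_mul, hS, sub_self]
  have h4 : (∑ k ∈ Finset.range r, S ^ k) v = 0 := by
    conv_lhs => rw [h2]
    exact LinearMap.congr_fun h3 w
  rw [LinearMap.sum_apply, Finset.sum_congr rfl (fun k _ => pow_fix h1 k), Finset.sum_const,
    Finset.card_range, ← Nat.cast_smul_eq_nsmul F] at h4
  exact (smul_eq_zero.1 h4).resolve_left hr

/-- `A = C_A(S) + [A,S]` -/
theorem decomp {S : End F V} {r : ℕ} (hr : (r : F) ≠ 0) (hS : S ^ r = 1) {A : Submodule F V}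
    (hA : ∀ v ∈ A, S v ∈ A) {v : V} (hv : v ∈ A) : ∃ u ∈ A, ∃ w ∈ A, S u = u ∧ v = u + (S w - w) := by
  have hsum : ∀ (n : ℕ), (∑ k ∈ Finset.range n, S ^ k) v ∈ A := by
    intro n
    rw [LinearMap.sum_apply]
    exact Submodule.sum_mem _ fun k _ => pow_mem hA hv k
  refine ⟨(r : F)⁻¹ • (∑ k ∈ Finset.range r, S ^ k) v, A.smul_mem _ (hsum r),
    -((r : F)⁻¹ • ∑ k ∈ Finset.range r, (∑ j ∈ Finset.range k, S ^ j) v),
    A.neg_mem (A.smul_mem _ (Submodule.sum_mem _ fun k _ => hsum k)), ?_, ?_⟩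
  · have h1 : (S - 1) * (∑ k ∈ Finset.range r, S ^ k) = 0 := by rw [mul_geom_sum, hS, sub_self]
    have h2 := LinearMap.congr_fun h1 v
    rw [map_smul]
    congr 1
    exact sub_eq_zero.1 h2
  · have h1 : ∀ k, S ((∑ j ∈ Finset.range k, S ^ j) v) - (∑ j ∈ Finset.range k, S ^ j) v = (S ^ k) v - v := by
      intro k
      have h2 : (S - 1) * (∑ j ∈ Finset.range k, S ^ j) = S ^ k - 1 := mul_geom_sum S k
      exact LinearMap.congr_fun h2 v
    have h2 : S (-((r : F)⁻¹ • ∑ k ∈ Finset.range r, (∑ j ∈ Finset.range k, S ^ j) v)) -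
        (-((r : F)⁻¹ • ∑ k ∈ Finset.range r, (∑ j ∈ Finset.range k, S ^ j) v)) =
        -((r : F)⁻¹ • ∑ k ∈ Finset.range r, ((S ^ k) v - v)) := by
      rw [map_neg, map_smul, map_sum, neg_sub_neg, ← smul_sub, ← Finset.sum_sub_distrib, ← smul_neg]
      congr 1
      rw [← Finset.sum_neg_distrib]
      exact Finset.sum_congr rfl fun k _ => by rw [← h1 k]; abel
    rw [h2, Finset.sum_sub_distrib, Finset.sum_const, Finset.card_range, ← Nat.cast_smul_eq_nsmul F, smul_sub,
      smul_smul, inv_mul_cancel₀ hr, one_smul, LinearMap.sum_apply]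
    abel

/-- `[A,S]` -/
def com (S : End F V) (A : Submodule F V) : Submodule F V := A.map (S - 1)

theorem mem_com {S : End F V} {A : Submodule F V} {v : V} : v ∈ com S A ↔ ∃ w ∈ A, S w - w = v := Iff.rfl

theorem com_le {S : End F V} {A : Submodule F V} (hA : ∀ v ∈ A, S v ∈ A) : com S A ≤ A := by
  rintro _ ⟨w, hw, rfl⟩
  exact A.sub_mem (hA w hw) hw

/-- `[A,S]` is invariant under maps commuting with `S` -/
theorem com_inv {S T : End F V} {A : Submodule F V} (hc : S * T = T * S) (hA : ∀ v ∈ A, T v ∈ A) :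
    ∀ v ∈ com S A, T v ∈ com S A := by
  rintro _ ⟨w, hw, rfl⟩
  refine ⟨T w, hA w hw, ?_⟩
  have h1 : S (T w) = T (S w) := LinearMap.congr_fun hc w
  show S (T w) - T w = T (S w - w)
  rw [h1, map_sub]

theorem com_fix {S : End F V} {r : ℕ} (hr : (r : F) ≠ 0) (hS : S ^ r = 1) {A : Submodule F V} :
    ∀ v ∈ com S A, S v = v → v = 0 := by
  rintro _ ⟨w, hw, rfl⟩ h
  exact eq_zero_of_fix hr hS h rfl

theorem polar_fix {S : End F V} (hI : Iso Q S) {u : V} (hu : S u = u) (w : V) : polar Q u (S w - w) = 0 := by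
  rw [QuadraticMap.polar_sub_right]
  nth_rewrite 1 [← hu]
  rw [hI.polar, sub_self]

theorem com_nonD {S : End F V} {r : ℕ} (hr : (r : F) ≠ 0) (hS : S ^ r = 1) (hI : Iso Q S) {A : Submodule F V}
    (hA : ∀ v ∈ A, S v ∈ A) (hn : NonD Q A) : NonD Q (com S A) := by
  intro x hx hxy
  apply hn x (com_le hA hx)
  intro y hy
  obtain ⟨u, hu, w, hw, h1, rfl⟩ := decomp hr hS hA hy
  obtain ⟨x', hx', rfl⟩ := hx
  have h2 : polar Q ((S - 1) x') (S w - w) = 0 := hxy _ ⟨w, hw, rfl⟩
  rw [QuadraticMap.polar_add_right, h2, add_zero, QuadraticMap.polar_comm]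
  exact polar_fix hI h1 x'

end gen

section cnt

variable {F V : Type*} [Field F] [AddCommGroup V] [Module F V] {Q : QuadraticForm F V}

/-- a set on which `S` has the only fixed point `0` -/
theorem card_modEq {Y : Set V} [Finite Y] {S : End F V} {r : ℕ} (hr : r.Prime) (hS : S ^ r = 1)
    (hY : ∀ v ∈ Y, S v ∈ Y) (h0 : (0 : V) ∈ Y) (hfix : ∀ v ∈ Y, S v = v → v = 0) :
    Nat.card Y ≡ 1 [MOD r] := by
  classical
  have := Fintype.ofFinite Y
  have := Fact.mk hr
  let f : Function.End Y := fun y => ⟨S y.1, hY y.1 y.2⟩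
  have hf : ∀ (n : ℕ) (y : Y), ((f ^ n) y : Y).1 = (S ^ n) y.1 := by
    intro n
    induction n with
    | zero => intro y; rfl
    | succ n ih =>
      intro y
      rw [pow_succ, pow_succ]
      exact ih (f y)
  have hf1 : f ^ r ^ 1 = 1 := by
    funext y
    apply Subtype.ext
    rw [pow_one, hf, hS]
    rfl
  have h1 := Equiv.Perm.card_fixedPoints_modEq (n := 1) hf1
  have h2 : Fintype.card (Function.fixedPoints f) = 1 := by
    rw [Fintype.card_eq_one_iff]
    refine ⟨⟨⟨0, h0⟩, ?_⟩, ?_⟩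
    · apply Subtype.ext
      exact map_zero S
    · rintro ⟨y, hy⟩
      apply Subtype.ext
      apply Subtype.ext
      exact hfix y.1 y.2 (congrArg Subtype.val hy)
  rw [h2] at h1
  rw [Nat.card_eq_fintype_card]
  exact h1

theorem dvd_card {Y : Submodule F V} [Finite Y] {S : End F V} {r : ℕ} (hr : r.Prime) (hS : S ^ r = 1)
    (hY : ∀ v ∈ Y, S v ∈ Y) (hfix : ∀ v ∈ Y, S v = v → v = 0) : r ∣ Nat.card Y - 1 := by
  have h1 := card_modEq (Y := (Y : Set V)) (S := S) hr hS hY Y.zero_mem hfix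
  exact (Nat.modEq_iff_dvd' Nat.card_pos).1 h1.symm

end cnt

section two

variable {F V : Type*} [Field F] [AddCommGroup V] [Module F V] {Q : QuadraticForm F V}

theorem two_eq_zero (hF : Nat.card F = 2) : (2 : F) = 0 := by
  have h1 := card_nsmul_eq_zero' (G := F) (x := 1)
  rw [hF, two_nsmul] at h1
  rw [← h1]
  norm_num

theorem odd_ne_zero (hF : Nat.card F = 2) {r : ℕ} (hr : r.Prime) (h2 : r ≠ 2) : (r : F) ≠ 0 := by
  obtain ⟨k, hk⟩ := hr.odd_of_ne_two h2
  rw [hk, Nat.cast_add, Nat.cast_mul, Nat.cast_ofNat, two_eq_zero hF, zero_mul, zero_add, Nat.cast_one]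
  exact one_ne_zero

theorem eq_one_of_ne (hF : Nat.card F = 2) {a : F} (ha : a ≠ 0) : a = 1 := by
  have : Finite F := Nat.finite_of_card_ne_zero (by omega)
  have := Fintype.ofFinite F
  have h1 := FiniteField.pow_card_sub_one_eq_one a ha
  rw [← Nat.card_eq_fintype_card, hF, pow_one] at h1
  exact h1

/-- an element of order `7` -/
theorem seven (hF : Nat.card F = 2) {T : End F V} (hT : T ^ 7 = 1) (hI : Iso Q T) {A : Submodule F V}
    (hA : ∀ v ∈ A, T v ∈ A) (hn : NonD Q A) (hA0 : A ≠ ⊥) (hfix : ∀ v ∈ A, T v = v → v = 0)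
    (hk : A ⊓ LinearMap.ker (T ^ 3 + T + 1) = ⊥ ∨ A ⊓ LinearMap.ker (T ^ 3 + T + 1) = A) : False := by
  have h2 := two_eq_zero hF
  have hTT : ∀ v, T (T (T (T (T (T (T v)))))) = v := fun v => LinearMap.congr_fun hT v
  have hadd : ∀ v : V, v + v = 0 := fun v => by
    rw [← two_smul F v, h2, zero_smul]
  have hneg : ∀ v : V, -v = v := fun v => neg_eq_of_add_eq_zero_left (hadd v)
  have hadj : ∀ u v, polar Q (T u) v = polar Q u (T (T (T (T (T (T v)))))) := by
    intro u v
    conv_lhs => rw [← hTT v]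
    rw [hI.polar]
  -- `f₁` and `f₂`
  have key1 : (∀ v ∈ A, T (T (T v)) + T v + v = 0) → ∀ v ∈ A, T (T (T v)) + T (T v) + v = 0 := by
    intro h v hv
    have h3 : T (T (T (T v))) + T (T (T (T (T (T v))))) + v = 0 := by
      apply hn
      · exact A.add_mem (A.add_mem (hA _ (hA _ (hA _ (hA _ hv)))) (hA _ (hA _ (hA _ (hA _ (hA _ (hA _ hv)))))))
          hv
      · intro y hy
        have h4 : polar Q (T (T (T y)) + T y + y) v = 0 := by
          rw [h y hy, QuadraticMap.polar_zero_left]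
        rw [QuadraticMap.polar_add_left, QuadraticMap.polar_add_left, hadj, hadj, hadj, hadj, hTT, hTT] at h4
        rw [QuadraticMap.polar_comm, QuadraticMap.polar_add_right, QuadraticMap.polar_add_right]
        exact h4
    have h4 := congrArg (fun v => T (T (T v))) h3
    simp only [map_add, hTT, map_zero] at h4
    rw [← h4]; abel
  have key2 : (∀ v ∈ A, T (T (T v)) + T (T v) + v = 0) → ∀ v ∈ A, T (T (T v)) + T v + v = 0 := by
    intro h v hv
    have h3 : T (T (T (T v))) + T (T (T (T (T v)))) + v = 0 := by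
      apply hn
      · exact A.add_mem (A.add_mem (hA _ (hA _ (hA _ (hA _ hv)))) (hA _ (hA _ (hA _ (hA _ (hA _ hv)))))) hv
      · intro y hy
        have h4 : polar Q (T (T (T y)) + T (T y) + y) v = 0 := by
          rw [h y hy, QuadraticMap.polar_zero_left]
        rw [QuadraticMap.polar_add_left, QuadraticMap.polar_add_left, hadj, hadj, hadj, hadj, hadj, hTT, hTT]
          at h4
        rw [QuadraticMap.polar_comm, QuadraticMap.polar_add_right, QuadraticMap.polar_add_right]
        exact h4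
    have h4 := congrArg (fun v => T (T (T v))) h3
    simp only [map_add, hTT, map_zero] at h4
    rw [← h4]; abel
  have key3 : (∀ v ∈ A, T (T (T v)) + T v + v = 0) → (∀ v ∈ A, T (T (T v)) + T (T v) + v = 0) → False := by
    intro h h'
    apply hA0
    rw [eq_bot_iff]
    intro v hv
    have h3 : T (T v) = T v := by
      have h4 := h v hv
      have h5 := h' v hv
      have h6 : T (T (T v)) + T v + v - (T (T (T v)) + T (T v) + v) = T v - T (T v) := by abel
      rw [h4, h5, sub_zero] at h6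
      exact (sub_eq_zero.1 h6.symm).symm
    have h4 := hfix _ (hA _ hv) h3
    have h5 := hTT v
    rw [h4] at h5
    simp only [map_zero] at h5
    rw [← h5]; exact Submodule.zero_mem _
  rcases hk with hk | hk
  · have h3 : ∀ v ∈ A, T (T (T v)) + T (T v) + v = 0 := by
      intro v hv
      have hm : T (T (T v)) + T (T v) + v ∈ A :=
        A.add_mem (A.add_mem (hA _ (hA _ (hA _ hv))) (hA _ (hA _ hv))) hv
      -- `f₁(T) f₂(T) v` is fixed by `T`
      have h5 : (T ^ 3 + T + 1 : End F V) (T (T (T v)) + T (T v) + v) = 0 := by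
        have hm' : (T ^ 3 + T + 1 : End F V) (T (T (T v)) + T (T v) + v) ∈ A := by
          show T (T (T (T (T (T v)) + T (T v) + v))) + T (T (T (T v)) + T (T v) + v) +
            (T (T (T v)) + T (T v) + v) ∈ A
          exact A.add_mem (A.add_mem (hA _ (hA _ (hA _ hm))) (hA _ hm)) hm
        apply hfix _ hm'
        have e : (T - 1) * ((T ^ 3 + T + 1) * (T ^ 3 + T ^ 2 + 1)) =
            (T ^ 7 - 1) + ((T ^ 4 - T ^ 3) + (T ^ 4 - T ^ 3)) := by noncomm_ring
        have e1 := LinearMap.congr_fun e v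
        rw [hT, sub_self, zero_add, LinearMap.add_apply, hadd] at e1
        exact sub_eq_zero.1 e1
      have h6 : T (T (T v)) + T (T v) + v ∈ A ⊓ LinearMap.ker (T ^ 3 + T + 1) := ⟨hm, h5⟩
      rw [hk] at h6
      exact (Submodule.mem_bot F).1 h6
    exact key3 (key2 h3) h3
  · have h3 : ∀ v ∈ A, T (T (T v)) + T v + v = 0 := by
      intro v hv
      rw [← hk] at hv
      exact hv.2
    exact key3 h3 (key1 h3)

theorem card_sub (hF : Nat.card F = 2) [FiniteDimensional F V] (Y : Submodule F V) :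
    Nat.card Y = 2 ^ finrank F Y := by
  have : Finite F := Nat.finite_of_card_ne_zero (by omega)
  rw [Module.natCard_eq_pow_finrank (K := F), hF]

/-- the primes of fixed-point-free elements -/
theorem prime_of_dim {r d : ℕ} (hr : r.Prime) (hr2 : r ≠ 2) (hd0 : d ≠ 0) (hd : d ≤ 6) (h : r ∣ 2 ^ d - 1) :
    (d = 2 ∧ r = 3) ∨ (d = 3 ∧ r = 7) ∨ (d = 4 ∧ (r = 3 ∨ r = 5)) ∨ (d = 5 ∧ r = 31) ∨
      (d = 6 ∧ (r = 3 ∨ r = 7)) := by
  have h1 : r ≤ 2 ^ d - 1 := Nat.le_of_dvd (by
    have : 2 ^ 1 ≤ 2 ^ d := Nat.pow_le_pow_right (by norm_num) (by omega)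
    omega) h
  interval_cases d
  · exact absurd rfl hd0
  · have h2 := Nat.le_of_dvd (by norm_num) h
    have h3 := hr.two_le
    omega
  all_goals (norm_num at h h1 ⊢; interval_cases r <;> first | omega | (exfalso; revert hr; decide))

/-- elements of orders `3` and `5` acting fixed-point-freely on a nondegenerate space of dimension `4` -/
theorem three_five (hF : Nat.card F = 2) [FiniteDimensional F V] {S T : End F V} (hS : S ^ 3 = 1) (hT : T ^ 5 = 1)
    (hIS : Iso Q S) (hIT : Iso Q T) {A : Submodule F V} (hSA : ∀ v ∈ A, S v ∈ A) (hTA : ∀ v ∈ A, T v ∈ A)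
    (hn : NonD Q A) (hA : finrank F A = 4) (hfS : ∀ v ∈ A, S v = v → v = 0) (hfT : ∀ v ∈ A, T v = v → v = 0) :
    False := by
  have : Finite F := Nat.finite_of_card_ne_zero (by omega)
  have : Finite V := Module.finite_of_finite F
  have h2 := two_eq_zero hF
  let Z : Set V := {v | v ∈ A ∧ Q v = 0}
  have hZ0 : (0 : V) ∈ Z := ⟨A.zero_mem, QuadraticMap.map_zero Q⟩
  have m3 := card_modEq (Y := Z) Nat.prime_three hS (fun v hv => ⟨hSA v hv.1, by rw [hIS]; exact hv.2⟩) hZ0
    fun v hv => hfS v hv.1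
  have m5 := card_modEq (Y := Z) Nat.prime_five hT (fun v hv => ⟨hTA v hv.1, by rw [hIT]; exact hv.2⟩) hZ0
    fun v hv => hfT v hv.1
  have hcA : Nat.card A = 16 := by rw [card_sub hF, hA]; norm_num
  have hle : Nat.card Z ≤ 16 := by
    rw [← hcA]
    exact Nat.card_mono (Set.toFinite _) fun v hv => hv.1
  have hcases : Nat.card Z = 1 ∨ Nat.card Z = 16 := by
    have h3 : Nat.card Z % 3 = 1 := m3
    have h5 : Nat.card Z % 5 = 1 := m5
    omega
  have hA0 : ∃ u ∈ A, u ≠ 0 := by
    by_contra hc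
    push Not at hc
    have : A = ⊥ := (Submodule.eq_bot_iff _).2 hc
    rw [this, finrank_bot] at hA
    omega
  obtain ⟨u, hu, hu0⟩ := hA0
  rcases hcases with h | h
  · -- `Q v = 1` for all `v ≠ 0`
    have h1 : ∀ v ∈ A, v ≠ 0 → Q v = 1 := by
      intro v hv hv0
      apply eq_one_of_ne hF
      intro hQ
      apply hv0
      rw [Nat.card_eq_one_iff_unique] at h
      have := h.1.elim (⟨v, hv, hQ⟩ : Z) ⟨0, hZ0⟩
      exact congrArg Subtype.val this
    have h3 : ∀ v ∈ A, v ≠ 0 → v ≠ u → polar Q u v = 1 := by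
      intro v hv hv0 hvu
      have h4 : u + v ≠ 0 := by
        intro h5
        apply hvu
        have h6 : u = -v := eq_neg_of_add_eq_zero_left h5
        rw [h6, neg_eq_of_add_eq_zero_left]
        rw [← two_smul F v, h2, zero_smul]
      rw [QuadraticMap.polar, h1 _ (A.add_mem hu hv) h4, h1 u hu hu0, h1 v hv hv0, sub_self, zero_sub]
      linear_combination -h2
    -- the kernel of `polar u` is contained in `{0, u}`
    let f : A →ₗ[F] F := (polarBilin Q u).comp A.subtype
    have hk : finrank F (LinearMap.ker f) ≤ 1 := by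
      by_contra hk
      have h5 : 4 ≤ Nat.card (LinearMap.ker f) := by
        rw [Module.natCard_eq_pow_finrank (K := F), hF]
        calc 4 = 2 ^ 2 := by norm_num
          _ ≤ _ := Nat.pow_le_pow_right (by norm_num) (by omega)
      have h6 : Nat.card (LinearMap.ker f) ≤ 2 := by
        have h7 : ((LinearMap.ker f : Submodule F A) : Set A) ⊆ {0, ⟨u, hu⟩} := by
          intro v hv
          by_contra hne
          simp only [Set.mem_insert_iff, Set.mem_singleton_iff, not_or] at hne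
          have h8 := h3 v.1 v.2 (fun h => hne.1 (Subtype.ext h)) (fun h => hne.2 (Subtype.ext h))
          have h9 : polar Q u v.1 = 0 := hv
          rw [h9] at h8
          exact zero_ne_one h8
        calc Nat.card (LinearMap.ker f) ≤ Nat.card ({0, ⟨u, hu⟩} : Set A) := Nat.card_mono (Set.toFinite _) h7
          _ ≤ 2 := by
            rw [Nat.card_coe_set_eq]
            exact (Set.ncard_insert_le _ _).trans (by rw [Set.ncard_singleton])
      omega
    have hrn := LinearMap.finrank_range_add_finrank_ker f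
    have hr1 : finrank F (LinearMap.range f) ≤ 1 := (Submodule.finrank_le _).trans (finrank_self F).le
    omega
  · -- `Q = 0` on `A`
    have h1 : ∀ v ∈ A, Q v = 0 := by
      have h3 : Z = (A : Set V) := by
        apply Set.eq_of_subset_of_ncard_le (fun v hv => hv.1)
        · rw [← Nat.card_coe_set_eq, ← Nat.card_coe_set_eq, h]
          exact hcA.le
      intro v hv
      have : v ∈ Z := by rw [h3]; exact hv
      exact this.2
    apply hu0
    apply hn u hu
    intro y hy
    rw [QuadraticMap.polar, h1 _ (A.add_mem hu hy), h1 u hu, h1 y hy, sub_self, sub_self]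

/-- no fixed-point-free element of order `7` on a nondegenerate space of dimension `3` -/
theorem not_three (hF : Nat.card F = 2) [FiniteDimensional F V] {T : End F V} (hT : T ^ 7 = 1) (hI : Iso Q T)
    {A : Submodule F V} (hA : ∀ v ∈ A, T v ∈ A) (hn : NonD Q A) (hA3 : finrank F A = 3)
    (hfix : ∀ v ∈ A, T v = v → v = 0) : False := by
  have : Finite F := Nat.finite_of_card_ne_zero (by omega)
  have : Finite V := Module.finite_of_finite F
  refine seven hF hT hI hA hn ?_ hfix ?_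
  · rintro rfl
    rw [finrank_bot] at hA3
    omega
  · by_cases h0 : A ⊓ LinearMap.ker (T ^ 3 + T + 1) = ⊥
    · exact Or.inl h0
    right
    have h1 : ∀ v ∈ A ⊓ LinearMap.ker (T ^ 3 + T + 1), T v ∈ A ⊓ LinearMap.ker (T ^ 3 + T + 1) := by
      rintro v ⟨h1, h2⟩
      refine ⟨hA v h1, ?_⟩
      have h3 : T (T (T v)) + T v + v = 0 := h2
      have h4 : T (T (T (T v))) + T (T v) + T v = 0 := by
        rw [← map_add, ← map_add, h3, map_zero]
      exact h4
    have h2 := dvd_card (Y := A ⊓ LinearMap.ker (T ^ 3 + T + 1)) (S := T) (by norm_num : Nat.Prime 7) hT h1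
      fun v hv => hfix v hv.1
    rw [card_sub hF] at h2
    have h3 : finrank F ↥(A ⊓ LinearMap.ker (T ^ 3 + T + 1)) ≤ 3 := by
      rw [← hA3]; exact Submodule.finrank_mono inf_le_left
    have h4 : finrank F ↥(A ⊓ LinearMap.ker (T ^ 3 + T + 1)) ≠ 0 := by
      intro h; exact h0 (Submodule.finrank_eq_zero.1 h)
    have h5 := prime_of_dim (by norm_num : Nat.Prime 7) (by norm_num) h4 (by omega) h2
    apply Submodule.eq_of_le_of_finrank_eq inf_le_left
    omega

/-- no commuting fixed-point-free elements of orders `3` and `7` on a nondegenerate space of dimension `6` -/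
theorem three_seven (hF : Nat.card F = 2) [FiniteDimensional F V] {S T : End F V} (hS : S ^ 3 = 1) (hT : T ^ 7 = 1)
    (hI : Iso Q T) (hc : S * T = T * S) {A : Submodule F V} (hSA : ∀ v ∈ A, S v ∈ A) (hA : ∀ v ∈ A, T v ∈ A)
    (hn : NonD Q A) (hA6 : finrank F A = 6) (hfS : ∀ v ∈ A, S v = v → v = 0) (hfix : ∀ v ∈ A, T v = v → v = 0) :
    False := by
  have : Finite F := Nat.finite_of_card_ne_zero (by omega)
  have : Finite V := Module.finite_of_finite F
  refine seven hF hT hI hA hn ?_ hfix ?_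
  · rintro rfl
    rw [finrank_bot] at hA6
    omega
  · by_cases h0 : A ⊓ LinearMap.ker (T ^ 3 + T + 1) = ⊥
    · exact Or.inl h0
    right
    have h1 : ∀ v ∈ A ⊓ LinearMap.ker (T ^ 3 + T + 1), T v ∈ A ⊓ LinearMap.ker (T ^ 3 + T + 1) := by
      rintro v ⟨h1, h2⟩
      refine ⟨hA v h1, ?_⟩
      have h3 : T (T (T v)) + T v + v = 0 := h2
      have h4 : T (T (T (T v))) + T (T v) + T v = 0 := by
        rw [← map_add, ← map_add, h3, map_zero]
      exact h4
    have hc' : ∀ v, S (T v) = T (S v) := fun v => LinearMap.congr_fun hc v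
    have h1' : ∀ v ∈ A ⊓ LinearMap.ker (T ^ 3 + T + 1), S v ∈ A ⊓ LinearMap.ker (T ^ 3 + T + 1) := by
      rintro v ⟨h1, h2⟩
      refine ⟨hSA v h1, ?_⟩
      have h3 : T (T (T v)) + T v + v = 0 := h2
      have h4 : T (T (T (S v))) + T (S v) + S v = 0 := by
        rw [← hc', ← hc', ← hc', ← map_add, ← map_add, h3, map_zero]
      exact h4
    have h2 := dvd_card (Y := A ⊓ LinearMap.ker (T ^ 3 + T + 1)) (S := T) (by norm_num : Nat.Prime 7) hT h1
      fun v hv => hfix v hv.1
    have h2' := dvd_card (Y := A ⊓ LinearMap.ker (T ^ 3 + T + 1)) (S := S) Nat.prime_three hS h1'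
      fun v hv => hfS v hv.1
    rw [card_sub hF] at h2 h2'
    have h3 : finrank F ↥(A ⊓ LinearMap.ker (T ^ 3 + T + 1)) ≤ 6 := by
      rw [← hA6]; exact Submodule.finrank_mono inf_le_left
    have h4 : finrank F ↥(A ⊓ LinearMap.ker (T ^ 3 + T + 1)) ≠ 0 := by
      intro h; exact h0 (Submodule.finrank_eq_zero.1 h)
    have h5 := prime_of_dim (by norm_num : Nat.Prime 7) (by norm_num) h4 h3 h2
    have h5' := prime_of_dim Nat.prime_three (by norm_num) h4 h3 h2'
    apply Submodule.eq_of_le_of_finrank_eq inf_le_left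
    omega

/-- the possible pairs -/
def PD (d r : ℕ) : Prop :=
  (d = 2 ∧ r = 3) ∨ (d = 3 ∧ r = 7) ∨ (d = 4 ∧ (r = 3 ∨ r = 5)) ∨ (d = 5 ∧ r = 31) ∨ (d = 6 ∧ (r = 3 ∨ r = 7))

theorem PD.arith1 {a b d : ℕ} (h1 : PD d a) (h2 : PD d b) (hab : a ≠ b) :
    (d = 4 ∧ a = 3 ∧ b = 5) ∨ (d = 4 ∧ a = 5 ∧ b = 3) ∨ (d = 6 ∧ a = 3 ∧ b = 7) ∨ (d = 6 ∧ a = 7 ∧ b = 3) := by
  unfold PD at h1 h2
  omega

theorem PD.arith2 {a b d e : ℕ} (h1 : PD d a) (h2 : PD e b) (hab : a ≠ b) (hs : d + e ≤ 6) :
    (a = 3 ∧ b = 5 ∧ d = 2 ∧ e = 4) ∨ (a = 5 ∧ b = 3 ∧ d = 4 ∧ e = 2) ∨ (a = 7 ∧ d = 3) ∨ (b = 7 ∧ e = 3) := by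
  unfold PD at h1 h2
  omega

/-- two commuting isometries of different odd prime orders of a nondegenerate space of dimension `6` -/
theorem types (hF : Nat.card F = 2) [FiniteDimensional F V] {S T : End F V} {a b : ℕ} (ha : a.Prime) (hb : b.Prime)
    (ha2 : a ≠ 2) (hb2 : b ≠ 2) (hab : a ≠ b) (hS : S ^ a = 1) (hT : T ^ b = 1) (hIS : Iso Q S) (hIT : Iso Q T)
    (hc : S * T = T * S) {A : Submodule F V} (hSA : ∀ v ∈ A, S v ∈ A) (hTA : ∀ v ∈ A, T v ∈ A) (hn : NonD Q A)
    (hA : finrank F A = 6) (hS1 : ∃ v ∈ A, S v ≠ v) (hT1 : ∃ v ∈ A, T v ≠ v) :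
    (∀ v ∈ com S A, T v = v) ∧
      ((a = 3 ∧ b = 5 ∧ finrank F (com S A) = 2 ∧ finrank F (com T A) = 4) ∨
        (a = 5 ∧ b = 3 ∧ finrank F (com S A) = 4 ∧ finrank F (com T A) = 2)) := by
  have : Finite F := Nat.finite_of_card_ne_zero (by omega)
  have : Finite V := Module.finite_of_finite F
  have ha0 := odd_ne_zero (F := F) hF ha ha2
  have hb0 := odd_ne_zero (F := F) hF hb hb2
  have hSc := com_inv (S := S) rfl hSA
  have hTc := com_inv (S := T) rfl hTA
  have hTSc := com_inv (S := S) (T := T) hc hTA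
  have hfS := com_fix (A := A) ha0 hS
  have hfT := com_fix (A := A) hb0 hT
  have hSle := com_le hSA
  have hTle := com_le hTA
  -- dimensions
  have dS0 : finrank F (com S A) ≠ 0 := by
    intro h
    obtain ⟨v, hv, hne⟩ := hS1
    have h1 : S v - v ∈ com S A := ⟨v, hv, rfl⟩
    rw [Submodule.finrank_eq_zero.1 h] at h1
    exact hne (sub_eq_zero.1 ((Submodule.mem_bot F).1 h1))
  have dT0 : finrank F (com T A) ≠ 0 := by
    intro h
    obtain ⟨v, hv, hne⟩ := hT1
    have h1 : T v - v ∈ com T A := ⟨v, hv, rfl⟩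
    rw [Submodule.finrank_eq_zero.1 h] at h1
    exact hne (sub_eq_zero.1 ((Submodule.mem_bot F).1 h1))
  have dS6 : finrank F (com S A) ≤ 6 := by rw [← hA]; exact Submodule.finrank_mono hSle
  have dT6 : finrank F (com T A) ≤ 6 := by rw [← hA]; exact Submodule.finrank_mono hTle
  have pS := dvd_card ha hS hSc hfS
  have pT := dvd_card hb hT hTc hfT
  rw [card_sub hF] at pS pT
  have cS : PD _ _ := prime_of_dim ha ha2 dS0 dS6 pS
  have cT : PD _ _ := prime_of_dim hb hb2 dT0 dT6 pT
  have nS := com_nonD ha0 hS hIS hSA hn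
  have nT := com_nonD hb0 hT hIT hTA hn
  -- the intersection
  have hX : com T (com S A) = ⊥ := by
    by_contra hX
    have hXle : com T (com S A) ≤ com S A := com_le hTSc
    have hXT := com_inv (S := T) (T := T) rfl hTSc
    have hXS := com_inv (S := T) (T := S) hc.symm hSc
    have hfXT := com_fix (A := com S A) hb0 hT
    have hfXS : ∀ v ∈ com T (com S A), S v = v → v = 0 := fun v hv => hfS v (hXle hv)
    have nX := com_nonD hb0 hT hIT hTSc nS
    have d0 : finrank F (com T (com S A)) ≠ 0 := fun h => hX (Submodule.finrank_eq_zero.1 h)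
    have d6 : finrank F (com T (com S A)) ≤ 6 := (Submodule.finrank_mono hXle).trans dS6
    have p1 := dvd_card ha hS hXS hfXS
    have p2 := dvd_card hb hT hXT hfXT
    rw [card_sub hF] at p1 p2
    have c1 : PD _ _ := prime_of_dim ha ha2 d0 d6 p1
    have c2 : PD _ _ := prime_of_dim hb hb2 d0 d6 p2
    rcases c1.arith1 c2 hab with ⟨h1, rfl, rfl⟩ | ⟨h1, rfl, rfl⟩ | ⟨h1, rfl, rfl⟩ | ⟨h1, rfl, rfl⟩
    · exact three_five hF hS hT hIS hIT hXS hXT nX h1 hfXS hfXT
    · exact three_five hF hT hS hIT hIS hXT hXS nX h1 hfXT hfXS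
    · exact three_seven hF hS hT hIT hc hXS hXT nX h1 hfXS hfXT
    · exact three_seven hF hT hS hIS hc.symm hXT hXS nX h1 hfXT hfXS
  have hfix : ∀ v ∈ com S A, T v = v := by
    intro v hv
    have h1 : T v - v ∈ com T (com S A) := ⟨v, hv, rfl⟩
    rw [hX] at h1
    exact sub_eq_zero.1 ((Submodule.mem_bot F).1 h1)
  have hinf : com S A ⊓ com T A = ⊥ := by
    rw [eq_bot_iff]
    rintro v ⟨h1, h2⟩
    exact (Submodule.mem_bot F).2 (hfT v h2 (hfix v h1))
  have hsum : finrank F (com S A) + finrank F (com T A) ≤ 6 := by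
    rw [← Submodule.finrank_sup_add_finrank_inf_eq, hinf, finrank_bot, add_zero, ← hA]
    exact Submodule.finrank_mono (sup_le hSle hTle)
  refine ⟨hfix, ?_⟩
  rcases cS.arith2 cT hab hsum with h | h | ⟨rfl, h⟩ | ⟨rfl, h⟩
  · exact Or.inl h
  · exact Or.inr h
  · exact (not_three hF hS hIS hSc nS h hfS).elim
  · exact (not_three hF hT hIT hTc nT h hfT).elim

end two

end Cfsg.Agent.H551.E5
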