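import Cfsg.Agent.H273.RC.Fev
import Cfsg.Agent.H551.E5.Lin

/-!
# S3510, row F (even), box E5, case (4): `q = 2`, `V = D ⊥ D'`, `dim D = 2`, `dim D' = 6` (helper551)
-/

set_option autoImplicit false
set_option linter.unusedSectionVars false
open Cfsg

namespace Cfsg.Agent.H551.E5

open QuadraticMap MulAction Module
open Cfsg.Agent.LieClassical.OrthCore Cfsg.Agent.LieClassical.OrthTrans
open Cfsg.Agent.LieClassical.OrthSimple Cfsg.Agent.ClassicalGeometry.OrthSemi
open Cfsg.Agent.ClassicalGeometry.OrthAut1 Cfsg.Agent.H106.RC Cfsg.Agent.H93.RC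
open Cfsg.Agent.H273.RC.Fev

section geom

variable {F V : Type} [Field F] [AddCommGroup V] [Module F V] {Q : QuadraticForm F V}

/-- the summands of an orthogonal decomposition are nondegenerate -/
theorem nonD_left (hQ : Nondeg Q) {D D' : Submodule F V} (hc : IsCompl D D')
    (ho : ∀ v ∈ D, ∀ w ∈ D', polar Q v w = 0) : NonD Q D := by
  intro x hx hxy
  apply hQ
  intro y
  obtain ⟨u, hu, w, hw, rfl⟩ := Submodule.mem_sup.1 (hc.sup_eq_top ▸ Submodule.mem_top : y ∈ D ⊔ D')
  rw [QuadraticMap.polar_add_right, hxy u hu, ho x hx w hw, add_zero]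

theorem nonD_right (hQ : Nondeg Q) {D D' : Submodule F V} (hc : IsCompl D D')
    (ho : ∀ v ∈ D, ∀ w ∈ D', polar Q v w = 0) : NonD Q D' :=
  nonD_left hQ hc.symm fun v hv w hw => by rw [QuadraticMap.polar_comm]; exact ho w hw v hv

/-- the sum of two orthogonal nondegenerate subspaces is nondegenerate -/
theorem nonD_sup {A B : Submodule F V} (hA : NonD Q A) (hB : NonD Q B)
    (ho : ∀ v ∈ A, ∀ w ∈ B, polar Q v w = 0) : NonD Q (A ⊔ B) := by
  intro x hx hxy
  obtain ⟨u, hu, w, hw, rfl⟩ := Submodule.mem_sup.1 hx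
  have h1 : u = 0 := by
    apply hA u hu
    intro y hy
    have := hxy y (Submodule.mem_sup_left hy)
    rw [QuadraticMap.polar_add_left, QuadraticMap.polar_comm (⇑Q) w y, ho y hy w hw, add_zero] at this
    exact this
  have h2 : w = 0 := by
    apply hB w hw
    intro y hy
    have := hxy y (Submodule.mem_sup_right hy)
    rw [QuadraticMap.polar_add_left, ho u hu y hy, zero_add] at this
    exact this
  rw [h1, h2, add_zero]

/-- a nonzero nondegenerate subspace contains a nonsingular vector -/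
theorem exists_nonsing {A : Submodule F V} (hA : NonD Q A) (h0 : A ≠ ⊥) : ∃ v ∈ A, Q v ≠ 0 := by
  by_contra hc
  push Not at hc
  apply h0
  rw [eq_bot_iff]
  intro x hx
  rw [Submodule.mem_bot]
  apply hA x hx
  intro y hy
  rw [QuadraticMap.polar, hc _ (A.add_mem hx hy), hc x hx, hc y hy, sub_self, sub_self]

end geom

variable {F V G Ω ι : Type} [Field F] [Finite F] [AddCommGroup V] [Module F V] [FiniteDimensional F V]
  [Group G] [Finite G] [MulAction G Ω] [Nonempty Ω] [Finite ι]
  {Q : QuadraticForm F V} {N : Subgroup G} {ρ : ↥(E Q) →* G} {x : ι → G} {M : ι → Gam Q} {r : ι → ℕ}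
  {T : ι → V ≃ₗ[F] V} {p : ℕ}

/-- the isometries as endomorphisms -/
def en (T : ι → V ≃ₗ[F] V) (i : ι) : End F V := (T i : V →ₗ[F] V)

theorem en_pow (S : Sit Q N ρ Ω x M r T p) (i : ι) : en T i ^ r i = 1 := by
  have h1 : ∀ n, en T i ^ n = ((T i ^ n : V ≃ₗ[F] V) : V →ₗ[F] V) := by
    intro n
    induction n with
    | zero => rfl
    | succ n ih => rw [pow_succ, ih, pow_succ]; rfl
  rw [h1, S.pow]
  rfl

theorem en_comm (S : Sit Q N ρ Ω x M r T p) (i j : ι) : en T i * en T j = en T j * en T i := by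
  ext v
  exact LinearEquiv.congr_fun (S.comm i j) v

theorem en_iso (S : Sit Q N ρ Ω x M r T p) (i : ι) : Iso Q (en T i) := S.iso i

/-- box A in this situation -/
theorem boxA (S : Sit Q N ρ Ω x M r T p) (W : Submodule F V) (hW : Good (Q.comp W.subtype)) (hWt : W ≠ ⊤)
    (hinv : ∀ i, ∀ v ∈ W, T i v ∈ W) (hne : ∃ i, ¬ ScalOn (M i) W)
    (hRC : RC (P (Q.comp W.subtype)) ∨ {i | ¬ ScalOn (M i) W}.Subsingleton) : False :=
  Cfsg.Agent.H188.RC.box_A_of S.good S.rep (p := p) S.box S.lf S.pf.prime S.pf.pow S.pf.ne S.pf.comm S.cov W hW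
    hWt (fun i v hv => by
      obtain ⟨a, -, h⟩ := S.lift i
      rw [h]
      exact W.smul_mem _ (hinv i v hv)) hne S.pf.inj.injOn (fun i _ => S.rp i) hRC

/-- rule (P): an invariant totally singular plane -/
theorem ruleP (S : Sit Q N ρ Ω x M r T p) {u w : V} (hu : Q u = 0) (hw : Q w = 0) (huw : polar Q u w = 0)
    (hu0 : u ≠ 0) (hind : ∀ a : F, w ≠ a • u)
    (hL : ∀ i, ∀ v ∈ Submodule.span F {u, w}, T i v ∈ Submodule.span F {u, w}) : False :=
  S.box ι S.lf S.pf.prime S.rp S.pf.pow S.pf.ne S.pf.comm hu hw huw hu0 hind (fun i v hv => by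
    obtain ⟨a, -, h⟩ := S.lift i
    rw [h]
    exact Submodule.smul_mem _ _ (hL i v hv)) fun ω => Or.inr (S.cov ω)

/-- no member is trivial -/
theorem not_one (S : Sit Q N ρ Ω x M r T p) (i : ι) (h : ∀ v, T i v = v) : False := by
  apply S.pf.ne i
  rw [(S.lf i).eq_one_iff S.good S.env S.rep]
  obtain ⟨a, ha, h1⟩ := S.lift i
  exact ⟨a, ha, fun v => by rw [h1, h]⟩

theorem char_two [CharP F p] (hF : Nat.card F = 2) : p = 2 := by
  have h1 : ((2 : ℕ) : F) = 0 := by exact_mod_cast two_eq_zero (F := F) hF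
  have h2 := (CharP.cast_eq_zero_iff F p 2).1 h1
  rcases (Nat.dvd_prime Nat.prime_two).1 h2 with h | h
  · subst h
    exact (CharP.char_ne_one F 1 rfl).elim
  · exact h

/-- a member acting nontrivially on a plane has order three and no fixed points there -/
theorem plane (hF : Nat.card F = 2) {S : End F V} {a : ℕ} (ha : a.Prime) (ha2 : a ≠ 2) (hS : S ^ a = 1)
    {D : Submodule F V} (hD : finrank F D ≤ 2) (hSD : ∀ v ∈ D, S v ∈ D) (h1 : ∃ v ∈ D, S v ≠ v) :
    a = 3 ∧ ∀ v ∈ D, S v = v → v = 0 := by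
  have : Finite V := Module.finite_of_finite F
  have ha0 := odd_ne_zero (F := F) hF ha ha2
  have hc := com_inv (S := S) rfl hSD
  have hf := com_fix (A := D) ha0 hS
  have hle := com_le hSD
  have d0 : finrank F (com S D) ≠ 0 := by
    intro h
    obtain ⟨v, hv, hne⟩ := h1
    have h2 : S v - v ∈ com S D := ⟨v, hv, rfl⟩
    rw [Submodule.finrank_eq_zero.1 h] at h2
    exact hne (sub_eq_zero.1 ((Submodule.mem_bot F).1 h2))
  have d2 : finrank F (com S D) ≤ 2 := (Submodule.finrank_mono hle).trans hD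
  have p1 := dvd_card ha hS hc hf
  rw [card_sub hF] at p1
  have c := prime_of_dim ha ha2 d0 (by omega) p1
  have h3 : finrank F (com S D) = 2 ∧ a = 3 := by
    clear p1 d0
    omega
  refine ⟨h3.2, ?_⟩
  have h4 : com S D = D := Submodule.eq_of_le_of_finrank_le hle (by omega)
  rw [h4] at hf
  exact hf

/-- `v + S v + S² v = 0` -/
theorem sum3 {S : End F V} (hS : S ^ 3 = 1) {D : Submodule F V} (hSD : ∀ v ∈ D, S v ∈ D)
    (hf : ∀ v ∈ D, S v = v → v = 0) {v : V} (hv : v ∈ D) : v + S v + S (S v) = 0 := by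
  apply hf _ (D.add_mem (D.add_mem hv (hSD v hv)) (hSD _ (hSD v hv)))
  have h1 : S (S (S v)) = v := LinearMap.congr_fun hS v
  rw [map_add, map_add, h1]
  abel

theorem case4_aux [CharP F p] (S : Sit Q N ρ Ω x M r T p) (hF : Nat.card F = 2) (h8 : finrank F V = 8)
    {D D' : Submodule F V} (hD2 : finrank F D = 2) (hD6 : finrank F D' = 6) (hc : IsCompl D D')
    (ho : ∀ v ∈ D, ∀ w ∈ D', polar Q v w = 0) (hTD : ∀ i, ∀ v ∈ D, T i v ∈ D)
    (hTD' : ∀ i, ∀ v ∈ D', T i v ∈ D') {i j : ι} (hij : i ≠ j) (hi : r i = 3) (hj : r j = 5)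
    (hi1 : ∃ v ∈ D', T i v ≠ v) (hj1 : ∃ v ∈ D', T j v ≠ v) : False := by
  have hp : p = 2 := char_two hF
  have hr2 : ∀ k, r k ≠ 2 := fun k => hp ▸ S.rp k
  have hpr := S.pf.prime
  have nD := nonD_left S.good.nondeg hc ho
  have nD' := nonD_right S.good.nondeg hc ho
  have h2 := two_eq_zero (F := F) hF
  have ty : ∀ k l, k ≠ l → (∃ v ∈ D', T k v ≠ v) → (∃ v ∈ D', T l v ≠ v) →
      (∀ v ∈ com (en T k) D', en T l v = v) ∧
      ((r k = 3 ∧ r l = 5 ∧ finrank F (com (en T k) D') = 2 ∧ finrank F (com (en T l) D') = 4) ∨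
        (r k = 5 ∧ r l = 3 ∧ finrank F (com (en T k) D') = 4 ∧ finrank F (com (en T l) D') = 2)) :=
    fun k l hkl hk hl => types hF (hpr k) (hpr l) (hr2 k) (hr2 l) (fun h => hkl (S.pf.inj h)) (en_pow S k)
      (en_pow S l) (en_iso S k) (en_iso S l) (en_comm S k l) (hTD' k) (hTD' l) nD' hD6 hk hl
  -- trivial on `D` unless `k = i`
  have hDk : ∀ k, k ≠ i → ∀ v ∈ D, T k v = v := by
    intro k hk
    by_contra hcon
    push Not at hcon
    obtain ⟨h3, -⟩ := plane hF (hpr k) (hr2 k) (en_pow S k) hD2.le (hTD k) hcon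
    exact hk (S.pf.inj (h3.trans hi.symm))
  -- all members are `i` or `j`
  have hall : ∀ k, k = i ∨ k = j := by
    intro k
    by_contra hcon
    push Not at hcon
    apply not_one S k
    intro v
    obtain ⟨u, hu, w, hw, rfl⟩ := Submodule.mem_sup.1 (hc.sup_eq_top ▸ Submodule.mem_top : v ∈ D ⊔ D')
    rw [map_add, hDk k hcon.1 u hu]
    congr 1
    by_contra hne
    obtain ⟨-, h⟩ := ty k i hcon.1 ⟨w, hw, hne⟩ hi1
    rcases h with ⟨h, -⟩ | ⟨h, -⟩
    · exact hcon.1 (S.pf.inj (h.trans hi.symm))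
    · exact hcon.2 (S.pf.inj (h.trans hj.symm))
  obtain ⟨hTj, tyi⟩ := ty i j hij hi1 hj1
  obtain ⟨hTi, -⟩ := ty j i hij.symm hj1 hi1
  have dA : finrank F (com (en T i) D') = 2 := by
    rcases tyi with h | h
    · exact h.2.2.1
    · exact absurd (hi.symm.trans h.1) (by norm_num)
  have dB : finrank F (com (en T j) D') = 4 := by
    rcases tyi with h | h
    · exact h.2.2.2
    · exact absurd (hi.symm.trans h.1) (by norm_num)
  have hi0 := odd_ne_zero (F := F) hF (hpr i) (hr2 i)
  have hj0 := odd_ne_zero (F := F) hF (hpr j) (hr2 j)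
  have nA := com_nonD hi0 (en_pow S i) (en_iso S i) (hTD' i) nD'
  have nB := com_nonD hj0 (en_pow S j) (en_iso S j) (hTD' j) nD'
  have Ale := com_le (S := en T i) (hTD' i)
  have Ble := com_le (S := en T j) (hTD' j)
  by_cases hiD : ∀ v ∈ D, T i v = v
  · -- `W = D ⊥ B`
    let W := D ⊔ com (en T j) D'
    have hWd : finrank F W = 6 := by
      have h3 := Submodule.finrank_sup_add_finrank_inf_eq D (com (en T j) D')
      have h4 : D ⊓ com (en T j) D' = ⊥ := by
        rw [eq_bot_iff, ← hc.inf_eq_bot]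
        exact inf_le_inf_left _ Ble
      rw [h4, finrank_bot, hD2, dB] at h3
      exact h3
    have nW : NonD Q W := nonD_sup nD nB fun v hv w hw => ho v hv w (Ble hw)
    have gW : Good (Q.comp W.subtype) := Cfsg.Agent.LieClassical.OrthFinite.good_of_finite (nonD_iff.1 nW) (by rw [hWd]; norm_num)
    have scal_i : ScalOn (M i) W := by
      obtain ⟨a, ha, h⟩ := S.lift i
      refine ⟨a, ha, fun v hv => ?_⟩
      obtain ⟨u, hu, w, hw, rfl⟩ := Submodule.mem_sup.1 hv
      rw [h, map_add, hiD u hu]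
      have h5 : T i w = w := hTi w hw
      rw [h5]
    have nscal_j : ¬ ScalOn (M j) W := by
      rintro ⟨c, hc0, h⟩
      obtain ⟨a, ha, h'⟩ := S.lift j
      obtain ⟨v, hv, hne⟩ := exists_nonsing nB (by
        intro h0
        rw [h0, finrank_bot] at dB
        omega)
      have h5 := h v (Submodule.mem_sup_right hv)
      rw [h', eq_one_of_ne hF ha, eq_one_of_ne hF hc0, one_smul, one_smul] at h5
      have h6 := com_fix (A := D') hj0 (en_pow S j) v hv h5
      rw [h6] at hne
      exact hne (QuadraticMap.map_zero Q)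
    refine boxA S W gW ?_ ?_ ⟨j, nscal_j⟩ (Or.inr ?_)
    · intro hWt
      rw [hWt, finrank_top] at hWd
      omega
    · intro k v hv
      obtain ⟨u, hu, w, hw, rfl⟩ := Submodule.mem_sup.1 hv
      rw [map_add]
      refine Submodule.add_mem_sup (hTD k u hu) ?_
      exact com_inv (S := en T j) (T := en T k) (en_comm S j k) (hTD' k) w hw
    · have hs : ∀ k, ¬ ScalOn (M k) W → k = j := by
        intro k hk
        rcases hall k with rfl | rfl
        · exact (hk scal_i).elim
        · rfl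
      intro k hk l hl
      rw [hs k hk, hs l hl]
  · -- rule (P)
    push Not at hiD
    obtain ⟨-, hfD⟩ := plane hF (hpr i) (hr2 i) (en_pow S i) hD2.le (hTD i) hiD
    have h3 : en T i ^ 3 = 1 := by rw [← hi]; exact en_pow S i
    have hfA := com_fix (A := D') hi0 (en_pow S i)
    have hAi := com_inv (S := en T i) (T := en T i) rfl (hTD' i)
    obtain ⟨d, hd, hQd⟩ := exists_nonsing nD (by
      intro h0
      rw [h0, finrank_bot] at hD2
      omega)
    obtain ⟨a, ha, hQa⟩ := exists_nonsing nA (by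
      intro h0
      rw [h0, finrank_bot] at dA
      omega)
    have hQd1 := eq_one_of_ne hF hQd
    have hQa1 := eq_one_of_ne hF hQa
    have hneg : ∀ v : V, -v = v := fun v => neg_eq_of_add_eq_zero_left (by rw [← two_smul F v, h2, zero_smul])
    -- `v = d + a`
    have s1 := sum3 h3 (hTD i) hfD hd
    have s2 := sum3 h3 hAi hfA ha
    have sv : (d + a) + T i (d + a) + T i (T i (d + a)) = 0 := by
      have h5 : (d + T i d + T i (T i d)) + (a + T i a + T i (T i a)) = 0 := by
        have e1 : d + T i d + T i (T i d) = 0 := s1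
        have e2 : a + T i a + T i (T i a) = 0 := s2
        rw [e1, e2, add_zero]
      rw [map_add, map_add, ← h5]
      abel
    have hQv : Q (d + a) = 0 := by
      rw [Q_add, hQd1, hQa1, ho d hd a (Ale ha), add_zero]
      linear_combination h2
    have hv0 : d + a ≠ 0 := by
      intro h0
      have h5 : d ∈ D ⊓ D' := ⟨hd, by
        rw [eq_neg_of_add_eq_zero_left h0]
        exact D'.neg_mem (Ale ha)⟩
      rw [hc.inf_eq_bot, Submodule.mem_bot] at h5
      rw [h5] at hQd
      exact hQd (QuadraticMap.map_zero Q)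
    have hQw : Q (T i (d + a)) = 0 := by rw [S.iso, hQv]
    have hTT : T i (T i (d + a)) = (d + a) + T i (d + a) := by
      have h5 := eq_neg_of_add_eq_zero_right sv
      rw [h5, hneg]
    have hpv : polar Q (d + a) (T i (d + a)) = 0 := by
      rw [QuadraticMap.polar, ← hTT, S.iso, S.iso, hQv, sub_self, sub_self]
    refine ruleP S hQv hQw hpv hv0 ?_ ?_
    · intro c hcc
      by_cases hc0 : c = 0
      · rw [hc0, zero_smul] at hcc
        exact hv0 ((T i).map_eq_zero_iff.1 hcc)
      · rw [eq_one_of_ne hF hc0, one_smul] at hcc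
        rw [hcc, hcc] at hTT
        have h6 : d + a = 0 := by
          have h7 : d + a + (d + a) = d + a := hTT.symm
          exact left_eq_add.1 h7.symm
        exact hv0 h6
    · intro k v hv
      obtain ⟨s, t, rfl⟩ := Submodule.mem_span_pair.1 hv
      rcases hall k with rfl | rfl
      · rw [map_add (T k) (s • (d + a)) (t • T k (d + a)), map_smul, map_smul, hTT]
        refine Submodule.mem_span_pair.2 ⟨t, s + t, ?_⟩
        module
      · have e1 : T k (d + a) = d + a := by
          rw [map_add, hDk k hij.symm d hd]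
          congr 1
          exact hTj a ha
        have e2 : T k (T i (d + a)) = T i (d + a) := by
          have := LinearEquiv.congr_fun (S.comm k i) (d + a)
          have h5 : T k (T i (d + a)) = T i (T k (d + a)) := this
          rw [h5, e1]
        rw [map_add (T k) (s • (d + a)) (t • T i (d + a)), map_smul, map_smul, e1, e2]
        exact Submodule.mem_span_pair.2 ⟨s, t, rfl⟩

/-- **Box E5, case (4).** -/
theorem case4 [CharP F p] (S : Sit Q N ρ Ω x M r T p) (h : Case4 Q T) : False := by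
  obtain ⟨hF, h8, D, D', hD2, hD6, hc, ho, hTD, hTD', -, i, j, hij, hi1, hj1⟩ := h
  have hp : p = 2 := char_two hF
  have hr2 : ∀ k, r k ≠ 2 := fun k => hp ▸ S.rp k
  have hpr := S.pf.prime
  have nD' := nonD_right S.good.nondeg hc ho
  have ty := types hF (hpr i) (hpr j) (hr2 i) (hr2 j) (fun h => hij (S.pf.inj h)) (en_pow S i)
      (en_pow S j) (en_iso S i) (en_iso S j) (en_comm S i j) (hTD' i) (hTD' j) nD' hD6 hi1 hj1
  rcases ty.2 with h | h
  · exact case4_aux S hF h8 hD2 hD6 hc ho hTD hTD' hij h.1 h.2.1 hi1 hj1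
  · exact case4_aux S hF h8 hD2 hD6 hc ho hTD hTD' hij.symm h.2.1 h.1 hj1 hi1

end Cfsg.Agent.H551.E5
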